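import Mathlib
import Cfsg.Agent.LFourA.SylDih

/-!
# The Sylow 2-subgroups of the symmetric group of degree eight are of type `D₈ wr 2`
-/

set_option autoImplicit false

namespace Cfsg.Agent.H245.SylS8

open DihedralGroup Cfsg.Agent.LFourA.Model Cfsg.Agent.LFourA.SylDih Cfsg.Agent.LFourA.Base

/-- a rotation of the square `0, 1, 2, 3` -/
def rho : Equiv.Perm (Fin 8) := c[0, 1, 2, 3]

/-- a reflection of the square `0, 1, 2, 3` -/
def tau : Equiv.Perm (Fin 8) := c[0, 1] * c[2, 3]

/-- the swap of the two squares -/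
def sw : Equiv.Perm (Fin 8) := c[0, 4] * c[1, 5] * c[2, 6] * c[3, 7]

/-- the dihedral group on the square `0, 1, 2, 3` -/
def phi : D 0 →* Equiv.Perm (Fin 8) :=
  dih (n := 4 * 2 ^ 0) rho tau (by decide +kernel) (by decide +kernel) (by decide +kernel)

instance decEqD : DecidableEq (D 0) := inferInstance

instance fintypeD : Fintype (D 0) := inferInstance

theorem comm_all : ∀ a b : D 0, (sw * phi a * sw) * phi b = phi b * (sw * phi a * sw) := by
  decide +kernel

theorem int_all : ∀ a b : D 0, sw * phi a * sw = phi b → b = 1 := by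
  decide +kernel

theorem ne_all : ∀ a b : D 0, sw ≠ sw * phi a * sw * phi b := by
  decide +kernel

theorem exists_model : ∃ (S : Subgroup (Equiv.Perm (Fin 8))) (f : D 0 → D 0 → Equiv.Perm (Fin 8))
    (w : Equiv.Perm (Fin 8)), DWr S 0 f w := by
  obtain ⟨S, hS⟩ := exists_dwr phi sw (by decide +kernel) comm_all int_all ne_all
  exact ⟨S, _, _, hS⟩

/-- **Coordinates on a group isomorphic to the Sylow 2-subgroups of `S₈`.** -/
theorem exists_dwr_of_equiv {G : Type*} [Group G] {T : Subgroup G}
    (hT : ∀ P : Sylow 2 (Equiv.Perm (Fin 8)), Nonempty (T ≃* (P : Subgroup (Equiv.Perm (Fin 8))))) :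
    ∃ (f : D 0 → D 0 → G) (w : G), DWr T 0 f w := by
  have h2p : Fact (Nat.Prime 2) := ⟨Nat.prime_two⟩
  obtain ⟨S, f, w, h⟩ := exists_model
  have hcard : Nat.card S = 2 ^ (Nat.card (Equiv.Perm (Fin 8))).factorization 2 := by
    rw [card_S h, Nat.card_perm, Nat.card_eq_fintype_card, Fintype.card_fin]
    have h1 : Nat.factorial 8 = 2 ^ 7 * 315 := by decide
    rw [h1]
    have h2 : (2 ^ 7 * 315).factorization 2 = 7 := by
      rw [Nat.factorization_mul (by norm_num) (by norm_num), Nat.Prime.factorization_pow Nat.prime_two]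
      have h3 : (315 : ℕ).factorization 2 = 0 := by
        apply Nat.factorization_eq_zero_of_not_dvd
        norm_num
      simp [h3]
    rw [h2]
    norm_num
  obtain ⟨e⟩ := hT (Sylow.ofCard S hcard)
  have h' : DWr ((Sylow.ofCard S hcard : Sylow 2 _) : Subgroup (Equiv.Perm (Fin 8))) 0 f w := h
  exact exists_of_equiv h' e.symm

end Cfsg.Agent.H245.SylS8
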